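import Mathlib
import Cfsg.Agent.Lib.Helper82.S4415.MonDefs

/-!
# S4415, sub-package [MON-PA]: the degree is 3 or 4

Pure permutation combinatorics: a subgroup `K ≤ Perm (Fin n)` without elements of order 3,
normalized by a 3-cycle `c` with `K⟨c⟩` transitive, forces `n = 3` or `n = 4`.
-/

set_option autoImplicit false
set_option linter.unusedSimpArgs false

namespace Cfsg.Agent.Lib.Helper81.S4415

open Cfsg.Agent.Lib.Helper82.S4415

universe w

/-- An explicit 3-cycle `a → b → d → a`. -/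
def C3 {ι : Type w} (s : Equiv.Perm ι) (a b d : ι) : Prop :=
  a ≠ b ∧ b ≠ d ∧ a ≠ d ∧ s a = b ∧ s b = d ∧ s d = a ∧
    ∀ j, j ≠ a → j ≠ b → j ≠ d → s j = j

theorem C3.rot {ι : Type w} {s : Equiv.Perm ι} {a b d : ι} (h : C3 s a b d) : C3 s b d a := by
  obtain ⟨h1, h2, h3, h4, h5, h6, h7⟩ := h
  exact ⟨h2, h3.symm, h1.symm, h5, h6, h4, fun j hb hd ha => h7 j ha hb hd⟩

theorem C3.cube {ι : Type w} {s : Equiv.Perm ι} {a b d : ι} (h : C3 s a b d) :
    s * s * s = 1 := by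
  obtain ⟨h1, h2, h3, h4, h5, h6, h7⟩ := h
  ext j
  simp only [Equiv.Perm.mul_apply, Equiv.Perm.one_apply]
  by_cases ha : j = a
  · rw [ha, h4, h5, h6]
  by_cases hb : j = b
  · rw [hb, h5, h6, h4]
  by_cases hd : j = d
  · rw [hd, h6, h4, h5]
  rw [h7 j ha hb hd, h7 j ha hb hd, h7 j ha hb hd]

theorem C3.inv_eq {ι : Type w} {s : Equiv.Perm ι} {a b d : ι} (h : C3 s a b d) :
    s⁻¹ = s * s :=
  inv_eq_of_mul_eq_one_left h.cube

theorem C3.conj {ι : Type w} {s : Equiv.Perm ι} {a b d : ι} (h : C3 s a b d)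
    (k : Equiv.Perm ι) : C3 (k * s * k⁻¹) (k a) (k b) (k d) := by
  obtain ⟨h1, h2, h3, h4, h5, h6, h7⟩ := h
  refine ⟨fun e => h1 (k.injective e), fun e => h2 (k.injective e),
    fun e => h3 (k.injective e), by simp [h4], by simp [h5], by simp [h6], ?_⟩
  intro j ja jb jd
  have e : s (k⁻¹ j) = k⁻¹ j := by
    apply h7
    · intro e; apply ja; rw [← e]; simp
    · intro e; apply jb; rw [← e]; simp
    · intro e; apply jd; rw [← e]; simp
  show k (s (k⁻¹ j)) = j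
  rw [e]; simp

/-- Disjoint 3-cycles: `s⁻¹ t` has order 3. -/
theorem C3.disj {ι : Type w} {s t : Equiv.Perm ι} {a b d a' b' d' : ι}
    (hs : C3 s a b d) (ht : C3 t a' b' d')
    (h1 : a ≠ a') (h2 : a ≠ b') (h3 : a ≠ d') (h4 : b ≠ a') (h5 : b ≠ b') (h6 : b ≠ d')
    (h7 : d ≠ a') (h8 : d ≠ b') (h9 : d ≠ d') :
    (s⁻¹ * t) ^ 3 = 1 ∧ s⁻¹ * t ≠ 1 := by
  rw [hs.inv_eq]
  obtain ⟨s1, s2, s3, s4, s5, s6, s7⟩ := hs
  obtain ⟨t1, t2, t3, t4, t5, t6, t7⟩ := ht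
  have sa' : s a' = a' := s7 a' h1.symm h4.symm h7.symm
  have sb' : s b' = b' := s7 b' h2.symm h5.symm h8.symm
  have sd' : s d' = d' := s7 d' h3.symm h6.symm h9.symm
  have ta : t a = a := t7 a h1 h2 h3
  have tb : t b = b := t7 b h4 h5 h6
  have td : t d = d := t7 d h7 h8 h9
  constructor
  · ext j
    simp only [pow_succ, pow_zero, one_mul, Equiv.Perm.mul_apply, Equiv.Perm.one_apply]
    by_cases ja : j = a
    · rw [ja]; simp only [ta, tb, td, s4, s5, s6]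
    by_cases jb : j = b
    · rw [jb]; simp only [ta, tb, td, s4, s5, s6]
    by_cases jd : j = d
    · rw [jd]; simp only [ta, tb, td, s4, s5, s6]
    have sj : s j = j := s7 j ja jb jd
    by_cases ja' : j = a'
    · rw [ja']; simp only [sa', sb', sd', t4, t5, t6]
    by_cases jb' : j = b'
    · rw [jb']; simp only [sa', sb', sd', t4, t5, t6]
    by_cases jd' : j = d'
    · rw [jd']; simp only [sa', sb', sd', t4, t5, t6]
    have tj : t j = j := t7 j ja' jb' jd'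
    simp only [sj, tj]
  · intro h
    have h' := congrArg (fun p : Equiv.Perm ι => p a') h
    simp only [Equiv.Perm.mul_apply, Equiv.Perm.one_apply, t4, sb'] at h'
    exact t1 h'.symm

/-- 3-cycles sharing exactly one point: the commutator has order 3. -/
theorem C3.one {ι : Type w} {s t : Equiv.Perm ι} {a b d b' d' : ι}
    (hs : C3 s a b d) (ht : C3 t a b' d')
    (h5 : b ≠ b') (h6 : b ≠ d') (h8 : d ≠ b') (h9 : d ≠ d') :
    (s * t * s⁻¹ * t⁻¹) ^ 3 = 1 ∧ s * t * s⁻¹ * t⁻¹ ≠ 1 := by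
  rw [hs.inv_eq, ht.inv_eq]
  obtain ⟨s1, s2, s3, s4, s5, s6, s7⟩ := hs
  obtain ⟨t1, t2, t3, t4, t5, t6, t7⟩ := ht
  have sb' : s b' = b' := s7 b' t1.symm h5.symm h8.symm
  have sd' : s d' = d' := s7 d' t3.symm h6.symm h9.symm
  have tb : t b = b := t7 b s1.symm h5 h6
  have td : t d = d := t7 d s3.symm h8 h9
  constructor
  · ext j
    simp only [pow_succ, pow_zero, one_mul, Equiv.Perm.mul_apply, Equiv.Perm.one_apply]
    by_cases ja : j = a
    · rw [ja]; simp only [tb, td, s4, s5, s6, sb', sd', t4, t5, t6]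
    by_cases jb : j = b
    · rw [jb]; simp only [tb, td, s4, s5, s6, sb', sd', t4, t5, t6]
    by_cases jd : j = d
    · rw [jd]; simp only [tb, td, s4, s5, s6, sb', sd', t4, t5, t6]
    have sj : s j = j := s7 j ja jb jd
    by_cases jb' : j = b'
    · rw [jb']; simp only [tb, td, s4, s5, s6, sb', sd', t4, t5, t6]
    by_cases jd' : j = d'
    · rw [jd']; simp only [tb, td, s4, s5, s6, sb', sd', t4, t5, t6]
    have tj : t j = j := t7 j ja jb' jd'
    simp only [sj, tj]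
  · intro h
    have h' := congrArg (fun p : Equiv.Perm ι => p a) h
    simp only [Equiv.Perm.mul_apply, Equiv.Perm.one_apply, tb, td, s4, s5, s6, sb', sd',
      t4, t5, t6] at h'
    exact s1 h'.symm

/-- 3-cycles sharing two points with the same orientation: `s⁻¹ t` has order 3. -/
theorem C3.two {ι : Type w} {s t : Equiv.Perm ι} {a b x y : ι}
    (hs : C3 s a b x) (ht : C3 t a b y) (hxy : x ≠ y) :
    (s⁻¹ * t) ^ 3 = 1 ∧ s⁻¹ * t ≠ 1 := by
  rw [hs.inv_eq]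
  obtain ⟨s1, s2, s3, s4, s5, s6, s7⟩ := hs
  obtain ⟨t1, t2, t3, t4, t5, t6, t7⟩ := ht
  have sy : s y = y := s7 y t3.symm t2.symm hxy.symm
  have tx : t x = x := t7 x s3.symm s2.symm hxy
  constructor
  · ext j
    simp only [pow_succ, pow_zero, one_mul, Equiv.Perm.mul_apply, Equiv.Perm.one_apply]
    by_cases ja : j = a
    · rw [ja]; simp only [s4, s5, s6, sy, tx, t4, t5, t6]
    by_cases jb : j = b
    · rw [jb]; simp only [s4, s5, s6, sy, tx, t4, t5, t6]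
    by_cases jx : j = x
    · rw [jx]; simp only [s4, s5, s6, sy, tx, t4, t5, t6]
    have sj : s j = j := s7 j ja jb jx
    by_cases jy : j = y
    · rw [jy]; simp only [s4, s5, s6, sy, tx, t4, t5, t6]
    have tj : t j = j := t7 j ja jb jy
    simp only [sj, tj]
  · intro h
    have h' := congrArg (fun p : Equiv.Perm ι => p b) h
    simp only [Equiv.Perm.mul_apply, Equiv.Perm.one_apply, s4, s5, s6, sy, tx, t4, t5, t6] at h'
    exact t2 h'.symm

theorem C3.of_mem {ι : Type w} {s : Equiv.Perm ι} {a b d x : ι} (h : C3 s a b d)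
    (hx : x = a ∨ x = b ∨ x = d) : C3 s x (s x) (s (s x)) := by
  have h4 := h.2.2.2.1
  have h5 := h.2.2.2.2.1
  have h6 := h.2.2.2.2.2.1
  rcases hx with e | e | e
  · rw [e, h4, h5]; exact h
  · rw [e, h5, h6]; exact h.rot
  · rw [e, h6, h4]; exact h.rot.rot

theorem C3.mem_apply {ι : Type w} {s : Equiv.Perm ι} {a b d x : ι} (h : C3 s a b d)
    (hx : x = a ∨ x = b ∨ x = d) : s x = a ∨ s x = b ∨ s x = d := by
  have h4 := h.2.2.2.1
  have h5 := h.2.2.2.2.1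
  have h6 := h.2.2.2.2.2.1
  rcases hx with e | e | e
  · rw [e, h4]; right; left; rfl
  · rw [e, h5]; right; right; rfl
  · rw [e, h6]; left; rfl

theorem C3.adj {ι : Type w} {s : Equiv.Perm ι} {a b d p q : ι} (h : C3 s a b d)
    (hp : p = a ∨ p = b ∨ p = d) (hq : q = a ∨ q = b ∨ q = d) (hpq : p ≠ q) :
    s p = q ∨ s q = p := by
  have h4 := h.2.2.2.1
  have h5 := h.2.2.2.2.1
  have h6 := h.2.2.2.2.2.1
  rcases hp with e | e | e <;> rcases hq with e' | e' | e'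
  · exact absurd (e.trans e'.symm) hpq
  · left; rw [e, e', h4]
  · right; rw [e, e', h6]
  · right; rw [e, e', h4]
  · exact absurd (e.trans e'.symm) hpq
  · left; rw [e, e', h5]
  · left; rw [e, e', h6]
  · right; rw [e, e', h5]
  · exact absurd (e.trans e'.symm) hpq

/-- **[MON-PA]** the degree is 3 or 4. -/
theorem pkgMonPA : PkgMonPA := by
  intro n K c hP
  obtain ⟨hc, hK1, hK2, hK3⟩ := hP
  obtain ⟨i0, i1, i2, h01, h12, h02, c0, c1, c2, cfix⟩ := hc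
  have hC : C3 c i0 i1 i2 := ⟨h01, h12, h02, c0, c1, c2, cfix⟩
  have hn3 : 3 ≤ n := by
    have a0 := i0.isLt
    have a1 := i1.isLt
    have a2 := i2.isLt
    have b01 : (i0 : ℕ) ≠ i1 := fun e => h01 (Fin.ext e)
    have b12 : (i1 : ℕ) ≠ i2 := fun e => h12 (Fin.ext e)
    have b02 : (i0 : ℕ) ≠ i2 := fun e => h02 (Fin.ext e)
    omega
  -- membership lemmas
  have hK1' : ∀ k ∈ K, c⁻¹ * k * c ∈ K := by
    intro k hk
    have e : c⁻¹ * k * c = c * (c * k * c⁻¹) * c⁻¹ := by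
      have h1 : c * (c * k * c⁻¹) * c⁻¹ = (c * c) * k * (c * c)⁻¹ := by group
      rw [h1, ← hC.inv_eq, inv_inv]
    rw [e]
    exact hK1 _ (hK1 k hk)
  have hKa : ∀ k ∈ K, ∀ k' ∈ K, (k * c * k⁻¹)⁻¹ * (k' * c * k'⁻¹) ∈ K := by
    intro k hk k' hk'
    have e : (k * c * k⁻¹)⁻¹ * (k' * c * k'⁻¹) = k * (c⁻¹ * (k⁻¹ * k') * c) * k'⁻¹ := by
      group
    rw [e]
    exact K.mul_mem (K.mul_mem hk (hK1' _ (K.mul_mem (K.inv_mem hk) hk'))) (K.inv_mem hk')
  have hKb0 : ∀ k ∈ K, c * (k * c * k⁻¹) * c⁻¹ * (k * c * k⁻¹)⁻¹ ∈ K := by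
    intro k hk
    have e : c * (k * c * k⁻¹) * c⁻¹ * (k * c * k⁻¹)⁻¹
        = (c * k * c⁻¹) * (c * (c * k * c⁻¹)⁻¹ * c⁻¹) * (c * k * c⁻¹) * k⁻¹ := by group
    rw [e]
    have h1 := hK1 k hk
    exact K.mul_mem (K.mul_mem (K.mul_mem h1 (hK1 _ (K.inv_mem h1))) h1) (K.inv_mem hk)
  have hKb : ∀ k ∈ K, ∀ k' ∈ K,
      (k * c * k⁻¹) * (k' * c * k'⁻¹) * (k * c * k⁻¹)⁻¹ * (k' * c * k'⁻¹)⁻¹ ∈ K := by
    intro k hk k' hk'
    have e : (k * c * k⁻¹) * (k' * c * k'⁻¹) * (k * c * k⁻¹)⁻¹ * (k' * c * k'⁻¹)⁻¹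
        = k * (c * ((k⁻¹ * k') * c * (k⁻¹ * k')⁻¹) * c⁻¹
            * ((k⁻¹ * k') * c * (k⁻¹ * k')⁻¹)⁻¹) * k⁻¹ := by
      group
    rw [e]
    exact K.mul_mem (K.mul_mem hk (hKb0 _ (K.mul_mem (K.inv_mem hk) hk'))) (K.inv_mem hk)
  -- the three forbidden configurations
  have X0 : ∀ k ∈ K, ∀ k' ∈ K, ∀ a b d a' b' d' : Fin n, C3 (k * c * k⁻¹) a b d →
      C3 (k' * c * k'⁻¹) a' b' d' →
      a ≠ a' → a ≠ b' → a ≠ d' → b ≠ a' → b ≠ b' → b ≠ d' → d ≠ a' → d ≠ b' → d ≠ d' →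
      False := by
    intro k hk k' hk' a b d a' b' d' hs ht h1 h2 h3 h4 h5 h6 h7 h8 h9
    obtain ⟨e1, e2⟩ := hs.disj ht h1 h2 h3 h4 h5 h6 h7 h8 h9
    exact e2 (hK2 _ (hKa k hk k' hk') e1)
  have X1 : ∀ k ∈ K, ∀ k' ∈ K, ∀ a b d b' d' : Fin n, C3 (k * c * k⁻¹) a b d →
      C3 (k' * c * k'⁻¹) a b' d' → b ≠ b' → b ≠ d' → d ≠ b' → d ≠ d' → False := by
    intro k hk k' hk' a b d b' d' hs ht h5 h6 h8 h9
    obtain ⟨e1, e2⟩ := hs.one ht h5 h6 h8 h9
    exact e2 (hK2 _ (hKb k hk k' hk') e1)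
  have X2 : ∀ k ∈ K, ∀ k' ∈ K, ∀ a b x y : Fin n, C3 (k * c * k⁻¹) a b x →
      C3 (k' * c * k'⁻¹) a b y → x ≠ y → False := by
    intro k hk k' hk' a b x y hs ht hxy
    obtain ⟨e1, e2⟩ := hs.two ht hxy
    exact e2 (hK2 _ (hKa k hk k' hk') e1)
  have hC1 : ∀ x y z : Fin n, C3 c x y z → C3 (1 * c * 1⁻¹) x y z := by
    intro x y z h
    simpa using h
  have ne_of : ∀ u v : Fin n, (u = i0 ∨ u = i1 ∨ u = i2) → ¬ (v = i0 ∨ v = i1 ∨ v = i2) →
      u ≠ v := by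
    intro u v hu hv e
    exact hv (e ▸ hu)
  have key : ∀ k ∈ K, ∀ x, (x = i0 ∨ x = i1 ∨ x = i2) → ¬ (k x = i0 ∨ k x = i1 ∨ k x = i2) →
      ∃ p q, (p = i0 ∨ p = i1 ∨ p = i2) ∧ (q = i0 ∨ q = i1 ∨ q = i2) ∧ c q = p ∧
        C3 (k * c * k⁻¹) (k x) p q := by
    intro k hk x hx hkx
    have hCx : C3 c x (c x) (c (c x)) := hC.of_mem hx
    have hy : c x = i0 ∨ c x = i1 ∨ c x = i2 := hC.mem_apply hx
    have hz : c (c x) = i0 ∨ c (c x) = i1 ∨ c (c x) = i2 := hC.mem_apply hy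
    have ht : C3 (k * c * k⁻¹) (k x) (k (c x)) (k (c (c x))) := hCx.conj k
    by_cases hky : k (c x) = i0 ∨ k (c x) = i1 ∨ k (c x) = i2
    · by_cases hkz : k (c (c x)) = i0 ∨ k (c (c x)) = i1 ∨ k (c (c x)) = i2
      · have hpq : k (c x) ≠ k (c (c x)) := ht.2.1
        rcases hC.adj hky hkz hpq with e | e
        · exfalso
          have h1 : C3 c (k (c x)) (k (c (c x))) (c (k (c (c x)))) := by
            have h0 := hC.of_mem hky
            rwa [e] at h0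
          have h2 : C3 (k * c * k⁻¹) (k (c x)) (k (c (c x))) (k x) := ht.rot
          exact X2 1 K.one_mem k hk _ _ _ _ (hC1 _ _ _ h1) h2
            (ne_of _ _ (hC.mem_apply hkz) hkx)
        · exact ⟨_, _, hky, hkz, e, ht⟩
      · exfalso
        have h1 : C3 c (k (c x)) (c (k (c x))) (c (c (k (c x)))) := hC.of_mem hky
        have h2 : C3 (k * c * k⁻¹) (k (c x)) (k (c (c x))) (k x) := ht.rot
        have m1 := hC.mem_apply hky
        have m2 := hC.mem_apply m1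
        exact X1 1 K.one_mem k hk _ _ _ _ _ (hC1 _ _ _ h1) h2 (ne_of _ _ m1 hkz)
          (ne_of _ _ m1 hkx) (ne_of _ _ m2 hkz) (ne_of _ _ m2 hkx)
    · by_cases hkz : k (c (c x)) = i0 ∨ k (c (c x)) = i1 ∨ k (c (c x)) = i2
      · exfalso
        have h1 : C3 c (k (c (c x))) (c (k (c (c x)))) (c (c (k (c (c x))))) :=
          hC.of_mem hkz
        have h2 : C3 (k * c * k⁻¹) (k (c (c x))) (k x) (k (c x)) := ht.rot.rot
        have m1 := hC.mem_apply hkz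
        have m2 := hC.mem_apply m1
        exact X1 1 K.one_mem k hk _ _ _ _ _ (hC1 _ _ _ h1) h2 (ne_of _ _ m1 hkx)
          (ne_of _ _ m1 hky) (ne_of _ _ m2 hkx) (ne_of _ _ m2 hky)
      · exfalso
        exact X0 1 K.one_mem k hk _ _ _ _ _ _ (hC1 _ _ _ hCx) ht (ne_of _ _ hx hkx)
          (ne_of _ _ hx hky) (ne_of _ _ hx hkz) (ne_of _ _ hy hkx) (ne_of _ _ hy hky)
          (ne_of _ _ hy hkz) (ne_of _ _ hz hkx) (ne_of _ _ hz hky) (ne_of _ _ hz hkz)
  -- conclusion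
  by_contra hcon
  have hn5 : 5 ≤ n := by omega
  obtain ⟨j, hj, j', hj', hjj'⟩ : ∃ j, ¬ (j = i0 ∨ j = i1 ∨ j = i2) ∧
      ∃ j', ¬ (j' = i0 ∨ j' = i1 ∨ j' = i2) ∧ j ≠ j' := by
    have hcard : 1 < (Finset.univ \ ({i0, i1, i2} : Finset (Fin n))).card := by
      rw [Finset.card_univ_sdiff, Fintype.card_fin]
      have h3 := Finset.card_le_three (a := i0) (b := i1) (c := i2)
      omega
    obtain ⟨j, hj, j', hj', hne⟩ := Finset.one_lt_card.mp hcard
    refine ⟨j, ?_, j', ?_, hne⟩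
    · simpa using hj
    · simpa using hj'
  have memD : ∀ m : ℕ, (c ^ m) i0 = i0 ∨ (c ^ m) i0 = i1 ∨ (c ^ m) i0 = i2 := by
    intro m
    induction m with
    | zero => left; simp
    | succ m ih => rw [pow_succ', Equiv.Perm.mul_apply]; exact hC.mem_apply ih
  obtain ⟨k, hk, m, hkm⟩ := hK3 i0 j
  obtain ⟨k', hk', m', hkm'⟩ := hK3 i0 j'
  rw [Equiv.Perm.mul_apply] at hkm hkm'
  obtain ⟨p, q, hp, hq, hcq, ht⟩ := key k hk _ (memD m) (by rw [hkm]; exact hj)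
  obtain ⟨p', q', hp', hq', hcq', ht'⟩ := key k' hk' _ (memD m') (by rw [hkm']; exact hj')
  rw [hkm] at ht
  rw [hkm'] at ht'
  by_cases hqq : q = q'
  · have hpp : p = p' := by rw [← hcq, ← hcq', hqq]
    rw [← hqq, ← hpp] at ht'
    exact X2 k hk k' hk' _ _ _ _ ht.rot ht'.rot hjj'
  · rcases hC.adj hq hq' hqq with e | e
    · have e1 : p = q' := by rw [← hcq, e]
      have h2 : C3 (k' * c * k'⁻¹) p j' p' := by rw [e1]; exact ht'.rot.rot
      have hqp' : q ≠ p' := by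
        have h0 := (hC.of_mem hq).2.2.1
        rw [e, hcq'] at h0
        exact h0
      exact X1 k hk k' hk' _ _ _ _ _ ht.rot h2 (ne_of _ _ hq hj') hqp' hjj'
        (ne_of _ _ hp' hj).symm
    · have e1 : p' = q := by rw [← hcq', e]
      have h2 : C3 (k' * c * k'⁻¹) q q' j' := by rw [← e1]; exact ht'.rot
      have hpq' : p ≠ q' := by
        have h0 := (hC.of_mem hq').2.2.1
        rw [e, hcq] at h0
        exact h0.symm
      exact X1 k hk k' hk' _ _ _ _ _ ht.rot.rot h2 (ne_of _ _ hq' hj).symm hjj' hpq'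
        (ne_of _ _ hp hj')

end Cfsg.Agent.Lib.Helper81.S4415
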